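import Cfsg.Agent.H190.Spr.Sec

/-!
# Overgroups of a cyclic torus (helper190, for S3938)

`K` contains the self-centralising cyclic torus `⟨s⟩`, `y ∈ ⟨s⟩` of order `n`, all primes of which are big, `w ∈ ⟨s⟩` of
prime order `w₀`.  `core` : `⟨w⟩` is normal, or `K` has a solvable normal subgroup `O ≤ ⟨s⟩` of order prime to `n`, and a
simple normal subgroup of `K / O` with trivial centraliser which contains `y`.
-/

set_option autoImplicit false
set_option linter.unusedSectionVars false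

namespace Cfsg.Agent.H190.Spr

open Subgroup Cfsg.Agent.H56.Exc Cfsg.Agent.H682.TE6 Cfsg.Agent.H290.Wei

universe u

variable {K : Type u} [Group K] [Finite K] {n m e w₀ : ℕ}

/-- an element whose conjugation action on a cyclic centraliser is known normalises the subgroups of it -/
theorem conj_mem_zpowers {s x w g : K} (hC : centralizer ({x} : Set K) = zpowers s) (hw : w ∈ zpowers s)
    (hx : x ∈ zpowers s) (hg : g * x * g⁻¹ ∈ zpowers x) : g * w * g⁻¹ ∈ zpowers w := by
  have h1 : zpowers (g * x * g⁻¹) = zpowers x := by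
    refine Subgroup.eq_of_le_of_card_ge ((zpowers_le).2 hg) ?_
    rw [Nat.card_zpowers, Nat.card_zpowers, ← MulAut.conj_apply]
    exact ((MulAut.conj g).orderOf_eq x).ge
  have h2 : x ∈ zpowers (g * x * g⁻¹) := by rw [h1]; exact mem_zpowers x
  have h3 : Commute (g * w * g⁻¹) (g * x * g⁻¹) := by
    have h4 : Commute w x := by
      obtain ⟨a, rfl⟩ := hw
      obtain ⟨b, rfl⟩ := hx
      exact (Commute.refl s).zpow_zpow a b
    show (g * w * g⁻¹) * (g * x * g⁻¹) = (g * x * g⁻¹) * (g * w * g⁻¹)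
    calc (g * w * g⁻¹) * (g * x * g⁻¹) = g * (w * x) * g⁻¹ := by group
      _ = g * (x * w) * g⁻¹ := by rw [h4.eq]
      _ = _ := by group
  have h5 : g * w * g⁻¹ ∈ zpowers s := by
    rw [← hC, mem_centralizer_singleton_iff]
    obtain ⟨k, hk⟩ := h2
    have hk' : (g * x * g⁻¹) ^ k = x := hk
    rw [← hk']
    exact (h3.zpow_right k).eq
  have hc : IsCyclic ↥(zpowers s) := inferInstance
  refine mem_zpowers_of_cyclic hc hw h5 ?_
  rw [← MulAut.conj_apply, (MulAut.conj g).orderOf_eq w]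

/-- **The structure.** -/
theorem core (hcyc : CycFixSolv.{u}) (hn : 1 < n) (hbig : ∀ r, PD n r → Big K r m e) {s y w : K}
    (hC : ∀ x ∈ zpowers s, PD n (orderOf x) → centralizer ({x} : Set K) = zpowers s)
    (hy : y ∈ zpowers s) (hyn : orderOf y = n) (hw : w ∈ zpowers s) (hw₀ : w₀.Prime) (hwo : orderOf w = w₀)
    (hR : ∀ O : Subgroup K, O.Normal → Group.IsSolvable O → (∀ r, PD n r → ¬ r ∣ Nat.card O) →
      ∀ (t : ℕ) (R : Subgroup K), t.Prime → R.Normal → IsPGroup t R → R ≤ O → ∀ u ∈ R, Commute u w)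
    (hΩ : ∀ R : Subgroup K, R.Normal → IsPGroup w₀ R → (∀ r, PD n r → ¬ r ∣ Nat.card R) →
      ∀ u ∈ R, u ^ w₀ = 1 → u ∈ zpowers w) :
    (zpowers w).Normal ∨ ∃ (O : Subgroup K) (_ : O.Normal) (S : Subgroup (K ⧸ O)) (_ : S.Normal)
      (_ : IsSimpleGroup S), ¬ IsMulCommutative S ∧ centralizer (S : Set (K ⧸ O)) = ⊥ ∧
      (∀ r, PD n r → ¬ r ∣ Nat.card O) ∧ (∀ u ∈ O, Commute u y) ∧ QuotientGroup.mk' O y ∈ S ∧ w ∉ O ∧
      (∀ r, PD n r → Big (K ⧸ O) r m e ∧ r ∣ Nat.card S) := by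
  obtain ⟨O, hOn, hO, hred⟩ := exists_red K (PD n) fun r hr => hr.1
  obtain ⟨r₀, hr₀, hr₀n⟩ := Nat.exists_prime_and_dvd hn.ne'
  have hdK : ∀ r, PD n r → r ∣ Nat.card K := fun r hr => hr.2.trans (hyn ▸ orderOf_dvd_natCard y)
  have hOs : Group.IsSolvable O := isSolvable_of_big hcyc (hbig r₀ ⟨hr₀, hr₀n⟩) (hdK _ ⟨hr₀, hr₀n⟩) (hO _ ⟨hr₀, hr₀n⟩)
  rcases core_w hwo hw₀ hOs (fun t R ht hRn hRt hRO u hu => hR O hOn hOs hO t R ht hRn hRt hRO u hu)
    (fun R hRn hRt hRO u hu h => hΩ R hRn hRt (fun r hr h1 => hO r hr (h1.trans (Subgroup.card_dvd_of_le hRO))) u hu h)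
    with h | ⟨hwO, hwc⟩
  · exact Or.inl h.2
  have hbigA : ∀ r, PD n r → Big (K ⧸ O) r m e := fun r hr => (hbig r hr).quotient O (hO r hr)
  -- elements of prime order dividing `n` in `⟨s⟩`
  have hex : ∀ r, PD n r → ∃ x ∈ zpowers s, orderOf x = r := by
    intro r hr
    obtain ⟨x, hx, hxr⟩ := exists_prime_pow' hr.1 (show r ∣ orderOf y by rw [hyn]; exact hr.2)
    exact ⟨x, (zpowers_le.2 hy) hx, hxr⟩
  by_cases hnn : ∃ r, PD n r ∧ ∃ a : K ⧸ O, orderOf a = r ∧ (zpowers a).Normal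
  · left
    obtain ⟨r, hr, a, ha, han⟩ := hnn
    obtain ⟨x, hxs, hxr⟩ := hex r hr
    set π := QuotientGroup.mk' O with hπ
    have hbA := hbigA r hr
    have := Fact.mk hr.1
    -- the image of `x`
    have hπx : orderOf (π x) = r := by
      have h1 : orderOf (π x) ∣ r := by rw [← hxr]; exact orderOf_map_dvd _ _
      rcases (Nat.dvd_prime hr.1).1 h1 with h2 | h2
      · exfalso
        rw [orderOf_eq_one_iff] at h2
        have h3 : x ∈ O := (QuotientGroup.eq_one_iff x).1 h2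
        apply hO r hr
        have h4 := orderOf_dvd_natCard (⟨x, h3⟩ : O)
        rwa [Subgroup.orderOf_mk, hxr] at h4
      · exact h2
    have hax : π x ∈ zpowers a := by
      have h1 : IsPGroup r (zpowers a) := IsPGroup.of_card (n := 1) (by rw [Nat.card_zpowers, ha, pow_one])
      have h2 : IsPGroup r (zpowers (π x)) := IsPGroup.of_card (n := 1) (by rw [Nat.card_zpowers, hπx, pow_one])
      have h3 : IsPGroup r (zpowers a ⊔ zpowers (π x) : Subgroup (K ⧸ O)) := IsPGroup.to_sup_of_normal_left h1 h2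
      exact mem_zpowers_of_cyclic (hbA.isCyclic_of_isPGroup h3) (mem_sup_left (mem_zpowers a))
        (mem_sup_right (mem_zpowers (π x))) (by rw [hπx, ha])
    have hxa : a ∈ zpowers (π x) := by
      have h1 : zpowers (π x) = zpowers a := by
        refine Subgroup.eq_of_le_of_card_ge ((zpowers_le).2 hax) ?_
        rw [Nat.card_zpowers, Nat.card_zpowers, ha, hπx]
      rw [h1]
      exact mem_zpowers a
    have key : ∀ g : K, g * w * g⁻¹ ∈ zpowers w := by
      intro g
      have h1 : π g * π x * (π g)⁻¹ ∈ zpowers (π x) := by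
        have h2 := han.conj_mem _ hax (π g)
        have h3 : zpowers a ≤ zpowers (π x) := (zpowers_le).2 hxa
        exact h3 h2
      obtain ⟨k, hk⟩ := h1
      have hk' : π (x ^ k * (g * x * g⁻¹)⁻¹) = 1 := by
        have h5 : (π x) ^ k = π g * π x * (π g)⁻¹ := hk
        rw [map_mul, map_zpow, map_inv, map_mul, map_mul, map_inv, h5, mul_inv_cancel]
      have hk2 : x ^ k * (g * x * g⁻¹)⁻¹ ∈ O := (QuotientGroup.eq_one_iff _).1 hk'
      obtain ⟨c, hcO, hc⟩ := lift_conj hr.1 O (hO r hr) hxr hk2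
      have h6 := conj_mem_zpowers (hC x hxs (by rw [hxr]; exact hr)) hw hxs (g := c * g) (by rw [hc]; exact ⟨k, rfl⟩)
      obtain ⟨j, hj⟩ := h6
      have hj' : w ^ j = (c * g) * w * (c * g)⁻¹ := hj
      have h7 : Commute c w := hwc c hcO
      have h8 : g * w * g⁻¹ = c⁻¹ * w ^ j * c := by
        rw [hj']
        group
      have h9 : c⁻¹ * w ^ j * c = w ^ j := by
        rw [mul_assoc, ← (h7.zpow_right j).eq, inv_mul_cancel_left]
      rw [h8, h9]
      exact ⟨j, rfl⟩
    refine ⟨?_⟩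
    rintro _ ⟨k, rfl⟩ g
    show g * w ^ k * g⁻¹ ∈ zpowers w
    rw [← conj_zpow]
    exact zpow_mem (key g) k
  · right
    push Not at hnn
    have hfam : NFam (K ⧸ O) n m e := ⟨hbigA, fun r hr => by
      have h1 := hdK r hr
      rw [Subgroup.card_eq_card_quotient_mul_card_subgroup O] at h1
      exact (hr.1.dvd_mul.1 h1).resolve_right (hO r hr), fun r hr x hx => hnn r hr x hx⟩
    obtain ⟨S, hSn, hSs, hna, hSc, hS⟩ := hfam.exists_full hcyc hred ⟨hr₀, hr₀n⟩
    have hyS : QuotientGroup.mk' O y ∈ S := by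
      have h1 : orderOf (QuotientGroup.mk' S (QuotientGroup.mk' O y)) ∣ n := by
        rw [← hyn]
        exact (orderOf_map_dvd _ _).trans (orderOf_map_dvd _ _)
      have h2 : orderOf (QuotientGroup.mk' S (QuotientGroup.mk' O y)) ∣ S.index := orderOf_dvd_natCard _
      have h3 : orderOf (QuotientGroup.mk' S (QuotientGroup.mk' O y)) = 1 := by
        by_contra h4
        obtain ⟨r, hr, hrd⟩ := Nat.exists_prime_and_dvd h4
        exact (hS r ⟨hr, hrd.trans h1⟩).2.2.1 (hrd.trans h2)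
      rw [orderOf_eq_one_iff] at h3
      exact (QuotientGroup.eq_one_iff _).1 h3
    have hcop : (Nat.card O).Coprime n := by
      rw [Nat.coprime_iff_gcd_eq_one]
      by_contra h
      obtain ⟨r, hr, hrd⟩ := Nat.exists_prime_and_dvd h
      exact hO r ⟨hr, hrd.trans (Nat.gcd_dvd_right _ _)⟩ (hrd.trans (Nat.gcd_dvd_left _ _))
    have hyc := commute_of_simple hyn hcop hwO hwc hSc hyS
    exact ⟨O, hOn, S, hSn, hSs, hna, hSc, hO, hyc, hyS, hwO, fun r hr => ⟨hbigA r hr, (hS r hr).2.1⟩⟩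

end Cfsg.Agent.H190.Spr
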