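import Cfsg.Agent.H290.Wei.CoreW
import Cfsg.Agent.H56.Exc.Full

/-!
# Reduced groups in which no subgroup of big prime order is normal (after helper56; helper190, for S3938)
-/

set_option autoImplicit false
set_option linter.unusedSectionVars false

namespace Cfsg.Agent.H190.Spr

open Subgroup Cfsg.Agent.H56.Exc

universe u

/-- the prime divisors of `n` -/
def PD (n r : ℕ) : Prop := r.Prime ∧ r ∣ n

/-- the prime divisors of `n` are big, no subgroup of such an order is normal -/
structure NFam (G : Type*) [Group G] (n m e : ℕ) : Prop where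
  big : ∀ r, PD n r → Big G r m e
  dvd : ∀ r, PD n r → r ∣ Nat.card G
  nn : ∀ r, PD n r → ∀ x : G, orderOf x = r → ¬ (zpowers x).Normal

variable {G : Type u} [Group G] [Finite G] {n m e : ℕ}

/-- in a reduced group with a family of big primes solvable normal subgroups are trivial -/
theorem NFam.eq_bot_of_solvable (h : NFam G n m e) (hred : Red G (PD n)) {N : Subgroup G} (hN : N.Normal)
    (hs : Group.IsSolvable N) : N = ⊥ := by
  by_contra hne
  obtain ⟨A, hA, hA1, -, hcomm⟩ := exists_abelian_normal N hne
  obtain ⟨r, hr, hrA⟩ := hred.exists_dvd hA hA1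
  have hb := h.big r hr
  have : Fact r.Prime := ⟨hb.prime⟩
  -- the elements of order dividing `r`
  let P : Subgroup G :=
    { carrier := {a | a ∈ A ∧ a ^ r = 1}
      one_mem' := ⟨one_mem _, one_pow _⟩
      mul_mem' := fun {a b} ha hb => ⟨mul_mem ha.1 hb.1, by
        rw [(show Commute a b from hcomm a ha.1 b hb.1).mul_pow, ha.2, hb.2, one_mul]⟩
      inv_mem' := fun {a} ha => ⟨inv_mem ha.1, by rw [inv_pow, ha.2, inv_one]⟩ }
  have hPn : P.Normal := ⟨fun a ha g => ⟨hA.conj_mem a ha.1 g, by rw [conj_pow, ha.2, mul_one, mul_inv_cancel]⟩⟩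
  have hPr : IsPGroup r P := by
    rw [IsPGroup.iff_orderOf]
    intro a
    have h1 : a ^ r = 1 := Subtype.ext a.2.2
    rcases (Nat.dvd_prime hb.prime).1 (orderOf_dvd_of_pow_eq_one h1) with h2 | h2
    · exact ⟨0, by rw [h2, pow_zero]⟩
    · exact ⟨1, by rw [h2, pow_one]⟩
  have hP1 : P ≠ ⊥ := by
    obtain ⟨a, ha⟩ := exists_prime_orderOf_dvd_card' r hrA
    intro h2
    have h3 : (a : G) ∈ P := ⟨a.2, by rw [← ha]; exact congrArg Subtype.val (pow_orderOf_eq_one a)⟩
    rw [h2, mem_bot] at h3
    have h4 : a = 1 := Subtype.ext h3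
    rw [h4, orderOf_one] at ha
    exact hb.prime.one_lt.ne ha
  obtain ⟨x, hx, hxn⟩ := hb.exists_normal_zpowers hPn hPr hP1
  exact h.nn r hr x hx hxn

/-- **The simple normal subgroup.** -/
theorem NFam.exists_simple (h : NFam G n m e) (hred : Red G (PD n)) {r₁ : ℕ} (hr₁ : PD n r₁) :
    ∃ S : Subgroup G, S.Normal ∧ IsSimpleGroup S ∧ ¬ IsMulCommutative S ∧ centralizer (S : Set G) = ⊥ := by
  have hG1 : (⊤ : Subgroup G) ≠ ⊥ := by
    intro h1
    have h2 := h.dvd r₁ hr₁
    rw [← Subgroup.card_top, h1, Subgroup.card_bot] at h2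
    exact (h.big r₁ hr₁).prime.one_lt.ne' (Nat.dvd_one.1 h2)
  obtain ⟨N, hN, hN1, -, hmin⟩ := exists_minimal G ⊤ inferInstance hG1
  obtain ⟨r, hr, hrN⟩ := hred.exists_dvd hN hN1
  have hb := h.big r hr
  have hbN := hb.subgroup N
  have : Fact r.Prime := ⟨hb.prime⟩
  have hns : ¬ Group.IsSolvable N := fun hs => hN1 (h.eq_bot_of_solvable hred hN hs)
  -- nontrivial normal subgroups of `N` have order divisible by `r`
  have key : ∀ A : Subgroup N, A.Normal → A ≠ ⊥ → r ∣ Nat.card A := by
    intro A hA hA1
    by_contra hrA
    obtain ⟨O, hO, hO1, hO2⟩ := exists_core N (fun s => s = r) (by rintro s rfl; exact hb.prime)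
    have hAO : A ≤ O := hO2 A hA (by rintro s rfl; exact hrA)
    have hOn : (O.map N.subtype).Normal := by
      constructor
      rintro _ ⟨a, ha, rfl⟩ g
      have h1 : O.map (MulAut.conjNormal (H := N) g).toMonoidHom ≤ O := by
        apply hO2
        · exact hO.map _ (MulAut.conjNormal (H := N) g).surjective
        · rintro s rfl
          have hc : Nat.card ↥(O.map (MulAut.conjNormal (H := N) g).toMonoidHom) = Nat.card O :=
            Nat.card_congr (O.equivMapOfInjective (MulAut.conjNormal (H := N) g).toMonoidHom
              (MulAut.conjNormal (H := N) g).injective).symm.toEquiv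
          rw [hc]
          exact hO1 s rfl
      refine ⟨MulAut.conjNormal g a, h1 ⟨a, ha, rfl⟩, ?_⟩
      exact MulAut.conjNormal_apply g a
    rcases hmin _ hOn (by rintro _ ⟨a, -, rfl⟩; exact a.2) with h2 | h2
    · apply hA1
      rw [Subgroup.map_eq_bot_iff_of_injective _ N.subtype_injective] at h2
      rw [eq_bot_iff, ← h2]; exact hAO
    · apply hO1 r rfl
      have h3 : Nat.card (O.map N.subtype) = Nat.card O :=
        Nat.card_congr (O.equivMapOfInjective _ N.subtype_injective).symm.toEquiv
      rw [← h3, h2]; exact hrN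
  -- no normal subgroup of order `r` in `N`
  have key2 : ∀ x : N, orderOf x = r → ¬ (zpowers x).Normal := by
    intro x hx hxn
    have h1 : (zpowers (x : G)).Normal := by
      constructor
      rintro _ ⟨k, rfl⟩ g
      have h2 : (MulAut.conjNormal g x : N) ∈ zpowers x := by
        set y : N := MulAut.conjNormal g x
        have hy : orderOf y = r := by rw [← hx]; exact (MulAut.conjNormal (H := N) g).orderOf_eq x
        have hp1 : IsPGroup r (zpowers x) := by
          rw [IsPGroup.iff_card]; exact ⟨1, by rw [Nat.card_zpowers, hx, pow_one]⟩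
        have hp2 : IsPGroup r (zpowers y) := by
          rw [IsPGroup.iff_card]; exact ⟨1, by rw [Nat.card_zpowers, hy, pow_one]⟩
        have hp3 : IsPGroup r (zpowers x ⊔ zpowers y : Subgroup N) := IsPGroup.to_sup_of_normal_left hp1 hp2
        exact mem_zpowers_of_cyclic (hbN.isCyclic_of_isPGroup hp3) (le_sup_left (a := zpowers x) (mem_zpowers x))
          (le_sup_right (a := zpowers x) (mem_zpowers y)) (by rw [hx, hy])
      obtain ⟨j, hj⟩ := h2
      have h3 : (x : G) ^ j = g * x * g⁻¹ := by
        have := congrArg Subtype.val hj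
        rwa [MulAut.conjNormal_apply] at this
      refine ⟨j * k, ?_⟩
      show (x : G) ^ (j * k) = g * (x : G) ^ k * g⁻¹
      rw [zpow_mul, h3, conj_zpow]
    exact h.nn r hr _ (by rw [Subgroup.orderOf_coe, hx]) h1
  have hsimple : IsSimpleGroup N := by
    refine { exists_pair_ne := ?_, eq_bot_or_eq_top_of_normal := ?_ }
    · exact ((Subgroup.nontrivial_iff_ne_bot N).2 hN1).exists_pair_ne
    · intro A hA
      by_contra hcon
      rw [not_or] at hcon
      obtain ⟨D, hD, hD1, hDA, hDmin⟩ := exists_minimal N A hA hcon.1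
      obtain ⟨x, hx⟩ := exists_prime_orderOf_dvd_card' r (key D hD hD1)
      by_cases hall : ∀ g : G, D.map (MulAut.conjNormal (H := N) g).toMonoidHom = D
      · have hDn : (D.map N.subtype).Normal := by
          constructor
          rintro _ ⟨a, ha, rfl⟩ g
          refine ⟨MulAut.conjNormal g a, (hall g).le ⟨a, ha, rfl⟩, ?_⟩
          exact MulAut.conjNormal_apply g a
        rcases hmin _ hDn (by rintro _ ⟨a, -, rfl⟩; exact a.2) with h2 | h2
        · apply hD1
          rwa [Subgroup.map_eq_bot_iff_of_injective _ N.subtype_injective] at h2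
        · apply hcon.2
          rw [eq_top_iff]
          intro a _
          apply hDA
          have h3 : (a : G) ∈ D.map N.subtype := by rw [h2]; exact a.2
          obtain ⟨b, hb, hba⟩ := h3
          have : b = a := Subtype.ext hba
          rwa [← this]
      · push Not at hall
        obtain ⟨g, hg⟩ := hall
        set φ := (MulAut.conjNormal (H := N) g).toMonoidHom with hφ
        have hφi : Function.Injective φ := (MulAut.conjNormal (H := N) g).injective
        have hD' : (D.map φ).Normal := hD.map _ (MulAut.conjNormal (H := N) g).surjective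
        have hcard : Nat.card (D.map φ) = Nat.card D :=
          Nat.card_congr (D.equivMapOfInjective _ hφi).symm.toEquiv
        have hdis : D ⊓ D.map φ = ⊥ := by
          rcases hDmin (D ⊓ D.map φ) inferInstance inf_le_left with h3 | h3
          · exact h3
          · exfalso
            have h4 : D ≤ D.map φ := by
              conv_lhs => rw [← h3]
              exact inf_le_right
            exact hg (Subgroup.eq_of_le_of_card_ge h4 hcard.le).symm
        have hcomm : ∀ a ∈ D, ∀ b ∈ D.map φ, Commute a b := fun a ha b hb' =>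
          Subgroup.commute_of_normal_of_disjoint _ _ hD hD' (disjoint_iff.2 hdis) a b ha hb'
        have hle : D.map φ ≤ centralizer {(x : N)} := by
          intro b hb'
          rw [mem_centralizer_singleton_iff]
          exact (hcomm x x.2 b hb').symm.eq
        have hcyc : IsCyclic ↥(D.map φ) := by
          have := hbN.cyc (x : N) (by rw [Subgroup.orderOf_coe, hx])
          exact isCyclic_of_injective (Subgroup.inclusion hle) (Subgroup.inclusion_injective hle)
        have hcycD : IsCyclic ↥D :=
          isCyclic_of_injective (D.equivMapOfInjective _ hφi).toMonoidHom (D.equivMapOfInjective _ hφi).injective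
        have hxn : (zpowers (x : N)).Normal := by
          constructor
          rintro _ ⟨k, rfl⟩ a
          have h5 : a * (x : N) * a⁻¹ ∈ zpowers (x : N) := by
            apply mem_zpowers_of_cyclic hcycD x.2 (hD.conj_mem _ x.2 a)
            rw [show orderOf (a * (x : N) * a⁻¹) = orderOf (x : N) from by
              rw [← MulAut.conj_apply]; exact (MulAut.conj a).orderOf_eq _]
          show a * (x : N) ^ k * a⁻¹ ∈ zpowers (x : N)
          rw [← conj_zpow]
          exact zpow_mem h5 k
        exact key2 x (by rw [Subgroup.orderOf_coe, hx]) hxn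
  refine ⟨N, hN, hsimple, fun hc => ?_, ?_⟩
  · apply hns
    rw [isMulCommutative_iff] at hc
    exact Group.isSolvable_of_comm hc
  · obtain ⟨x, hx⟩ := exists_prime_orderOf_dvd_card' r hrN
    apply h.eq_bot_of_solvable hred inferInstance
    have hle : centralizer (N : Set G) ≤ centralizer {(x : G)} := by
      apply centralizer_le
      intro y hy
      rw [Set.mem_singleton_iff] at hy
      rw [hy]; exact x.2
    apply isSolvable_of_cyclic
    have := hb.cyc (x : G) (by rw [Subgroup.orderOf_coe, hx])
    exact isCyclic_of_injective (Subgroup.inclusion hle) (Subgroup.inclusion_injective hle)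


/-- **The section of a reduced group.** -/
theorem NFam.exists_full (hE : CycFixSolv.{u}) (h : NFam G n m e) (hred : Red G (PD n)) {r₁ : ℕ} (hr₁ : PD n r₁) :
    ∃ S : Subgroup G, S.Normal ∧ IsSimpleGroup S ∧ ¬ IsMulCommutative S ∧ centralizer (S : Set G) = ⊥ ∧
      (∀ r, PD n r → Big S r m e ∧ r ∣ Nat.card S ∧ ¬ r ∣ S.index ∧ S.index ∣ e * m) := by
  obtain ⟨S, hSn, hs, hna, hC⟩ := h.exists_simple hred hr₁
  refine ⟨S, hSn, hs, hna, hC, fun r hr => ?_⟩
  have hb := h.big r hr
  have : Fact r.Prime := ⟨hb.prime⟩
  have hrS : r ∣ Nat.card S := by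
    by_contra hcon
    obtain ⟨x, hx⟩ := exists_prime_orderOf_dvd_card' r (h.dvd r hr)
    have h1 : Group.IsSolvable S := by
      apply hE S (MulAut.conjNormal (H := S) x) r hb.prime _ hcon
      · refine ⟨(centralizer {x}).comap S.subtype, ?_, fun a ha => ?_⟩
        · have := hb.cyc x hx
          let g : ↥((centralizer {x}).comap S.subtype) →* ↥(centralizer {x}) :=
            (S.subtype.comp ((centralizer {x}).comap S.subtype).subtype).codRestrict _ fun y => y.2
          exact isCyclic_of_injective g fun a b hab => by
            have h3 : ((a : S) : G) = ((b : S) : G) := congrArg (fun z : ↥(centralizer {x}) => (z : G)) hab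
            exact Subtype.ext (Subtype.ext h3)
        · rw [mem_comap, mem_centralizer_singleton_iff]
          have h2 := congrArg Subtype.val ha
          rw [MulAut.conjNormal_apply, mul_inv_eq_iff_eq_mul] at h2
          exact h2.symm
      · rw [← map_pow, ← hx, pow_orderOf_eq_one, map_one]
    apply hna
    rw [isMulCommutative_iff]
    exact IsSimpleGroup.comm_iff_isSolvable.2 h1
  exact ⟨hb.subgroup S, hrS, hb.not_dvd_index S hs hna hrS, hb.index_dvd S hrS⟩



end Cfsg.Agent.H190.Spr
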